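import Mathlib
import Cfsg.Agent.Lib.PU.GN

/-!
# The exceptional class of the Glauberman-Niles theorem
-/

set_option autoImplicit false

namespace Cfsg.Lib.PU

open Subgroup Cfsg.Lib.BG Cfsg.Lib.Transfer Cfsg.Lib.Loc Cfsg.Lib.PLocal
open scoped commutatorElement Pointwise

universe u

variable {S : Type u} [Group S] [Finite S] {p : ℕ} [hp : Fact p.Prime]

theorem phi_top (hS : IsPGroup p S) : 𝚽((⊤ : Subgroup S)) = frattini S :=
  PGroup.map_frattini_of_surjective (hS.to_subgroup ⊤) _ fun x => ⟨⟨x, trivial⟩, rfl⟩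

omit [Finite S] in
theorem IsPair.normal_or {S₁ S₂ : Subgroup S} (h : IsPair p S₁ S₂) {G : Type u} [Group G] [Finite G]
    {τ : S →* G} (hτ : Function.Injective τ) (hE : IsPushingUpSituation p τ.range) :
    (S₁.map τ).Normal ∨ (S₂.map τ).Normal := by
  obtain ⟨-, ⟨P, hP⟩, hE₁, hE₂, K, _, F, _, _, n, hF, hE₃⟩ := hE
  have := charP_of_card_eq hF
  obtain ⟨M, hM, -⟩ := exists_hyp_of_psl P hE₁ (hP ▸ hE₂)
    (hE₃.some.toMonoidHom.comp (QuotientGroup.mk' K))
    (hE₃.some.surjective.comp (QuotientGroup.mk'_surjective K))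
  exact h.2.2.2.2.2.2.2 G τ M hτ (τ.range_eq_map ▸ hP ▸ hM)

omit [Finite S] in
theorem IsPair.situation {S₁ S₂ : Subgroup S} (h : IsPair p S₁ S₂) (G : Type u) [Group G]
    [Finite G] (P : Subgroup G) (e : S ≃* P) (hE : IsPushingUpSituation p P) :
    (S₁.map (P.subtype.comp e.toMonoidHom)).Normal ∨
      (S₂.map (P.subtype.comp e.toMonoidHom)).Normal :=
  h.normal_or (P.subtype_injective.comp e.injective) (by
    rwa [MonoidHom.range_comp, MonoidHom.range_eq_top.2 e.surjective, ← MonoidHom.range_eq_map,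
      range_subtype])

omit [Finite S] in
theorem isPair_top [Nontrivial S] [IsMulCommutative S] : IsPair p (⊤ : Subgroup S) ⊤ := by
  have hc : ∀ U : Subgroup S, ⊤ ≤ 𝐂(U) := fun U x _ y _ => mul_comm' y x
  refine ⟨top_ne_bot, top_ne_bot, inferInstance, inferInstance, center_eq_top.ge, hc _,
    characteristic_subgroupOf (eq_top_iff.2 (hc _)), fun G _ _ τ M hτ h => (h.not_le_core ?_).elim⟩
  exact ((map_cent τ (hc ⊤)).trans (cent_anti h.core_le)).trans h.char

omit hp in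
theorem map_phiCL {S' : Type*} [Group S'] [Finite S'] (e : S ≃* S') :
    (frattiniOfMinimalCLJoin p S).map e.toMonoidHom = frattiniOfMinimalCLJoin p S' := by
  have h1 : ∀ Q : Subgroup S, IsMinimalCentrallyLarge (Q.map e.toMonoidHom) ↔
      IsMinimalCentrallyLarge Q := fun Q => by
    rw [← mclIn_top, ← mclIn_top, ← MCLIn.map (f := e.toMonoidHom) e.injective,
      map_top_of_surjective _ e.surjective]
  have h2 : ∀ Q : Subgroup S, Nat.card (omegaOneCenter p (Q.map e.toMonoidHom)) =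
      Nat.card (omegaOneCenter p Q) := fun Q => by
    rw [← map_omegaOneCenter e.injective, card_map_of_injective e.injective]
  have h3 : ∀ Q : Subgroup S', (Q.comap e.toMonoidHom).map e.toMonoidHom = Q := fun Q =>
    map_comap_eq_self_of_surjective e.surjective Q
  have h4 : maxOmegaCenterOfMinimalCL p S' = maxOmegaCenterOfMinimalCL p S := by
    refine congrArg sSup (Set.ext fun k => ⟨?_, ?_⟩)
    · rintro ⟨Q, hQ, rfl⟩
      exact ⟨_, (h1 _).1 ((h3 Q).symm ▸ hQ), by rw [← h2, h3]⟩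
    · rintro ⟨Q, hQ, rfl⟩
      exact ⟨_, (h1 _).2 hQ, h2 Q⟩
  rw [frattiniOfMinimalCLJoin, frattiniOfMinimalCLJoin, Subgroup.map_iSup]
  refine le_antisymm (iSup_le fun Q => le_iSup_of_le ⟨_, (h1 _).2 Q.2.1, by rw [h2, h4, Q.2.2]⟩
    (map_frattini_subtype e.injective _).le) (iSup_le fun Q => le_iSup_of_le
      ⟨_, (h1 _).1 ((h3 Q).symm ▸ Q.2.1), by rw [← h2, h3, Q.2.2, h4]⟩ ?_)
  rw [map_frattini_subtype e.injective, h3]

theorem isPair_phi [Nontrivial S] (hS : IsPGroup p S) (hJ : 𝐂(zjA S) = ⊤)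
    (h : frattiniOfMinimalCLJoin p S ≠ ⊥) : IsPair p (center S) (frattiniOfMinimalCLJoin p S) := by
  have : (frattiniOfMinimalCLJoin p S).Characteristic := characteristic_iff_map_eq.2 map_phiCL
  refine isPair_of_top hJ (by simpa using inf_center_ne_bot hS top_ne_bot) h le_rfl
    fun G _ _ τ M hτ k => Or.inr ?_
  have := k.normal_phiJoin
  rwa [← map_frattiniOfMinimalCLJoin, ← map_phiCL (topEquiv.symm.trans
    (equivMapOfInjective ⊤ τ hτ)), map_map] at this

/-- The groups for which the Glauberman-Niles construction gives nothing. -/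
theorem exists_isPair_or [Nontrivial S] (hS : IsPGroup p S) : (∃ S₁ S₂ : Subgroup S,
    IsPair p S₁ S₂ ∧ maxCentralProduct S₂ = maxCentralProduct 𝐂(zjA S)) ∨
    (𝐂(zjA S) = ⊤ ∧ ∀ Q : Subgroup S, IsMinimalCentrallyLarge Q → Q ∈ maxAbelianSubgroups S) ∧
    ¬ IsMulCommutative S ∧ thompsonSubgroupA S = ⊤ ∧ IsElementaryAbelian p (center S) ∧
    IsElementaryAbelian p (frattini S) ∧ (p = 2 → frattini S ≤ center S) ∧
    (p = 3 → frattini S ≤ Subgroup.upperCentralSeries S 2) ∧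
    (3 < p → frattini S ≤ center S ∧ Monoid.exponent S = p) ∧
    (∀ A ∈ maxAbelianSubgroups S, ∀ B ∈ maxAbelianSubgroups S, ∀ Q : Subgroup S,
      Nat.card A ^ 2 = Nat.card S * Nat.card (center S) ∧
      Nat.card Q * Nat.card (center Q) ≤ Nat.card S * Nat.card (center S) ∧
      ((A ⊔ B : Subgroup S) : Set S) = (A : Set S) * (B : Set S) ∧ A ⊔ B = 𝐂(A ⊓ B)) := by
  refine or_iff_not_imp_left.2 fun h => ?_
  have h0 := mt (exists_isPair hS) h
  push Not at h0
  obtain ⟨h1, h2, h3, h4⟩ := h0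
  have hJ : 𝐂(zjA S) = ⊤ := eq_top_iff.2 (comm_eq_bot_iff'.1 h1)
  obtain ⟨Q, hQ⟩ := exists_isMinimalCentrallyLarge S
  obtain ⟨h5, h6, h7⟩ := thompson_eq_top hJ hQ (h3 Q hQ)
  have hc : ∀ {X : Subgroup S}, ⁅X, (⊤ : Subgroup S)⁆ = ⊥ → X ≤ center S := fun h => by
    rwa [comm_eq_bot_iff, coe_top, centralizer_univ] at h
  have he : ∀ {X : Subgroup S}, 𝚽(X) = ⊥ → IsElementaryAbelian p X := fun h => by
    rw [← le_bot_iff, PGroup.map_subtype_frattini_le_iff (hS.to_subgroup _), le_bot_iff] at h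
    exact ⟨abelian_iff_der.2 h.1, h.2⟩
  rw [gn0, phi_top hS] at h4
  refine ⟨⟨hJ, fun R hR => ?_⟩, fun _ => h ⟨⊤, ⊤, isPair_top, by rw [hJ]⟩, h5, h2, ?_, ?_, ?_, ?_,
    fun A hA B hB R => ?_⟩
  · have := abelian_iff_der.2 (h3 Q hQ)
    exact (IsMinimalCentrallyLarge.iff_mem_maxAbelian hQ R).1 hR
  · split_ifs at h4
    · exact he (sup_eq_bot_iff.1 h4).2
    · exact he (sup_eq_bot_iff.1 h4).2
    · have := hc (sup_eq_bot_iff.1 h4).1
      exact ⟨isMulCommutative_of_le this, fun x hx => h2.2 x (this hx)⟩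
  · rintro rfl
    exact hc (sup_eq_bot_iff.1 h4).1
  · rintro rfl
    intro x hx
    rw [Subgroup.mem_upperCentralSeries_succ_iff, Subgroup.upperCentralSeries_one]
    exact fun y => hc (sup_eq_bot_iff.1 h4).1 (commutator_mem_commutator hx (mem_top y))
  · intro h3
    rw [if_neg (by omega), if_neg (by omega), sup_eq_bot_iff] at h4
    refine ⟨hc h4.1, (Monoid.exponent_eq_prime_iff hp.out).2 fun x hx => orderOf_eq_prime ?_ hx⟩
    simpa [h4.2] using PGroup.pow_mem_powerClosure (p := p) (n := 1) (mem_top x)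
  have e : clm (⊤ : Subgroup S) = Nat.card S * Nat.card (center S) := by
    rw [clm, top_inf_eq, coe_top, centralizer_univ, card_top]
  have k := clIn_top.2 h6
  have kA := IsCentrallyLarge.large (h7 A hA)
  have kB := IsCentrallyLarge.large (h7 B hB)
  refine ⟨?_, ?_, IsCentralizerLarge.coe_sup kA kB, ?_⟩
  · rw [← e, ← k.maxCentralProduct_eq, (clIn_top.2 (h7 A hA)).maxCentralProduct_eq, clm,
      centralizer_eq_of_mem_maxAbelian hA, inf_idem, sq]
  · rw [← e, card_center_eq]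
    exact k.2 R le_top
  · rw [IsCentralizerLarge.centralizer_inf kA kB, centralizer_eq_of_mem_maxAbelian hA,
      centralizer_eq_of_mem_maxAbelian hB]

end Cfsg.Lib.PU
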